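import Cfsg.Agent.H179.OT.F4

/-!
# S2539: fixed roots of involutive isometries (helper179)

`fixed_or_orth` : `D = D₄, F₄, E₆, E₇, E₈`, `w` an involutive isometry of the roots, `wa ≠ -a`. Then `w` fixes a root
`g` with `⟨a, g^∨⟩ ≠ 0`, or `D` is simply laced, `⟨wa, a^∨⟩ = 0` and the window of `a^∨ + (wa)^∨` is `[-2, 2]`.
-/

set_option autoImplicit false

namespace Cfsg.Agent.H179.OT

open Cfsg Cfsg.Lie Cfsg.Lie.ChevalleyDatum
open Cfsg.Agent.ChevalleyStructure Cfsg.Agent.ChevalleyStructure.Elts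
open Cfsg.Agent.H412.OT (pr)

theorem fixed_or_orth {D : ChevalleyDatum} (hD : D ∈ [chevD4, chevF4, chevE6, chevE7, chevE8]) {w : ℕ → ℕ}
    (hw : ∀ g < D.nroots, w g < D.nroots) (hw2 : ∀ g < D.nroots, w (w g) = g)
    (hpr : ∀ r < D.nroots, ∀ s < D.nroots, pr D (w r) (w s) = pr D r s) {a : ℕ} (ha : a < D.nroots)
    (h1 : w a ≠ D.neg a) :
    (∃ g < D.nroots, w g = g ∧ pr D g a ≠ 0) ∨
      (SLD D ∧ pr D a (w a) = 0 ∧ ∀ s < D.nroots, |pr D a s + pr D (w a) s| ≤ 2) := by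
  by_cases hF : D = chevF4
  · subst hF
    exact Or.inl (F4.exists_fixed hw hw2 hpr ha h1)
  · have hS : SLD D := by
      simp only [List.mem_cons, List.not_mem_nil, or_false] at hD
      simp only [SLD, List.mem_cons, List.not_mem_nil, or_false]
      tauto
    by_cases h0 : pr D a (w a) = 0
    · exact Or.inr ⟨hS, h0, fun s hs => window hS ha (hw a ha) hs h0⟩
    · exact Or.inl (exists_fixed hS hw hw2 hpr ha h1 h0)

end Cfsg.Agent.H179.OT
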