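import Cfsg.Agent.H412.OT.Defs

/-!
# S2539: root-table facts for the simply laced types (helper179)

`pr D r s = ⟨s, r^∨⟩` of `H412.OT.Defs`; `SLD D : D ∈ [chevD4, chevE6, chevE7, chevE8]`.

* `pr_comm`, `pr_self`, `pr_neg_left`, `pr_neg_right`, `pr_abs_le` (`|⟨s, r^∨⟩| ≤ 1` for `s ≠ ± r`), `eq_of_pr_two`;
* `exists_add` : `⟨s, r^∨⟩ = -1` gives the root `r + s`;
* `sum_pr` : `∑ g, ⟨g, r^∨⟩ ⟨g, s^∨⟩ = 2 h ⟨s, r^∨⟩`;
* `odd_card` : `⟨b, a^∨⟩ = ± 1` implies that the number of `g` with `⟨g, a^∨⟩ = ⟨g, b^∨⟩ = 1` is odd;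
* `exists_fixed` : an involutive isometry `w` of the roots with `⟨a, (wa)^∨⟩ = ± 1` fixes a root `g` with `⟨a, g^∨⟩ ≠ 0`.
-/

set_option autoImplicit false
set_option linter.unusedSectionVars false

namespace Cfsg.Agent.H179.OT

open Cfsg Cfsg.Lie Cfsg.Lie.ChevalleyDatum
open Cfsg.Agent.ChevalleyStructure Cfsg.Agent.ChevalleyStructure.Elts Cfsg.Agent.ChevalleyStructure.RootVec
  Cfsg.Agent.ChevalleyStructure.RootVecTab
open Cfsg.Agent.H412.OT (pr)

/-- The simply laced data. -/
def SLD (D : ChevalleyDatum) : Prop := D ∈ [chevD4, chevE6, chevE7, chevE8]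

theorem SLD.inList {D : ChevalleyDatum} (h : SLD D) : InList D := by
  simp only [SLD, List.mem_cons, List.not_mem_nil, or_false] at h
  simp only [InList, List.mem_cons, List.not_mem_nil, or_false]
  tauto

variable {D : ChevalleyDatum}

/-! ### tables -/

/-- Sum of integers, for kernel checks. -/
def sZ (f : ℕ → ℤ) : ℕ → ℤ
  | 0 => 0
  | n + 1 => Int.add (sZ f n) (f n)

theorem sZ_eq (f : ℕ → ℤ) (n : ℕ) : sZ f n = ∑ i ∈ Finset.range n, f i := by
  induction n with
  | zero => rfl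
  | succ n ih => rw [Finset.sum_range_succ, ← ih]; rfl

/-- `2h` -/
def twoh (D : ChevalleyDatum) : ℕ := 2 * (D.nroots / D.rank)

def chkCoRt (D : ChevalleyDatum) : Bool :=
  allLT (fun i => allLT (fun r => decide ((D.coroot.getD r #[]).getD i 0 =
    Int.sub (dig (code D r) (D.rank - 1 - i)) 8)) D.nroots) D.rank

def chkSum (D : ChevalleyDatum) : Bool :=
  allLT (fun i => allLT (fun j => decide (sZ (fun g => Int.mul (Int.sub (cart D i g) 8) (Int.sub (cart D j g) 8)) D.nroots =
    Int.mul (twoh D) (Int.sub (cart D i (D.simple j)) 8))) D.rank) D.rank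

def chkLen (D : ChevalleyDatum) : Bool :=
  D.chain.toList.all fun row => row.toList.all fun e => Nat.ble e.2.toList.length 1

theorem chkCoRt_D4 : chkCoRt chevD4 = true := by decide +kernel
theorem chkCoRt_E6 : chkCoRt chevE6 = true := by decide +kernel
theorem chkCoRt_E7 : chkCoRt chevE7 = true := by decide +kernel
theorem chkCoRt_E8 : chkCoRt chevE8 = true := by decide +kernel
theorem chkSum_D4 : chkSum chevD4 = true := by decide +kernel
theorem chkSum_E6 : chkSum chevE6 = true := by decide +kernel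
theorem chkSum_E7 : chkSum chevE7 = true := by decide +kernel
theorem chkSum_E8 : chkSum chevE8 = true := by decide +kernel
theorem chkLen_D4 : chkLen chevD4 = true := by decide +kernel
theorem chkLen_E6 : chkLen chevE6 = true := by decide +kernel
theorem chkLen_E7 : chkLen chevE7 = true := by decide +kernel
theorem chkLen_E8 : chkLen chevE8 = true := by decide +kernel


section

variable (hD : SLD D)
include hD

theorem SLD.checked : Checked D := checked_of_mem hD.inList

theorem chkCoRt_true : chkCoRt D = true := by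
  simp only [SLD, List.mem_cons, List.not_mem_nil, or_false] at hD
  rcases hD with rfl | rfl | rfl | rfl
  exacts [chkCoRt_D4, chkCoRt_E6, chkCoRt_E7, chkCoRt_E8]

theorem chkSum_true : chkSum D = true := by
  simp only [SLD, List.mem_cons, List.not_mem_nil, or_false] at hD
  rcases hD with rfl | rfl | rfl | rfl
  exacts [chkSum_D4, chkSum_E6, chkSum_E7, chkSum_E8]

theorem chkLen_true : chkLen D = true := by
  simp only [SLD, List.mem_cons, List.not_mem_nil, or_false] at hD
  rcases hD with rfl | rfl | rfl | rfl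
  exacts [chkLen_D4, chkLen_E6, chkLen_E7, chkLen_E8]

theorem twoh_mod : twoh D % 4 = 0 := by
  simp only [SLD, List.mem_cons, List.not_mem_nil, or_false] at hD
  rcases hD with rfl | rfl | rfl | rfl <;> decide +kernel

theorem co_eq_rt {r i : ℕ} (hr : r < D.nroots) (hi : i < D.rank) : co D r i = rt D r i := by
  have h := chkCoRt_true hD
  simp only [chkCoRt, allLT_iff, decide_eq_true_eq] at h
  rw [rt_of_lt hr hi, co_def, h i hi r hr]
  rfl

theorem sum_cartan {i j : ℕ} (hi : i < D.rank) (hj : j < D.rank) :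
    ∑ g ∈ Finset.range D.nroots, D.cartan i g * D.cartan j g = (twoh D : ℤ) * D.cartan i (D.simple j) := by
  have h := chkSum_true hD
  simp only [chkSum, allLT_iff, decide_eq_true_eq] at h
  have h1 := h i hi j hj
  rw [sZ_eq] at h1
  rw [cartan_eq_cart hD.checked hi (simple_lt hD.checked hj)]
  refine Eq.trans (Finset.sum_congr rfl fun g hg => ?_) h1
  rw [cartan_eq_cart hD.checked hi (Finset.mem_range.1 hg), cartan_eq_cart hD.checked hj (Finset.mem_range.1 hg)]
  rfl

theorem length_chainEntry (r s : ℕ) : (D.chainEntry r s).length ≤ 1 := by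
  by_cases h0 : D.chainEntry r s = []
  · rw [h0]; simp
  obtain ⟨e, he, rfl, h1⟩ := chainEntry_eq_some (D := D) r s h0
  rw [h1]
  have hr := lt_of_mem_row hD.checked he
  have h := chkLen_true hD
  have hr' : r < D.chain.toList.length := by rw [chain_size hD.checked]; exact hr
  rw [chkLen, List.all_eq_true] at h
  have h2 := h (D.chain.toList[r]) (List.getElem_mem hr')
  rw [List.all_eq_true] at h2
  have h3 := h2 e (by rw [← getD_toList D.chain #[] hr']; exact he)
  exact Nat.le_of_ble_eq_true h3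

/-! ### the pairing -/

theorem pr_eq_co (r s : ℕ) : pr D r s = ∑ i ∈ Finset.range D.rank, co D r i * D.cartan i s := rfl

theorem pr_eq (r s : ℕ) : pr D r s = Strings.cartanR D r s := rfl

/-- `⟨·, r^∨⟩` is additive. -/
theorem pr_of_rt {u r s t : ℕ} {a b : ℤ} (hu : u < D.nroots) (hr : r < D.nroots)
    (hs : s < D.nroots) (e : ∀ i < D.rank, rt D u i = a * rt D r i + b * rt D s i) :
    pr D t u = a * pr D t r + b * pr D t s := by
  simp only [pr_eq_co hD]
  rw [Finset.mul_sum, Finset.mul_sum, ← Finset.sum_add_distrib]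
  refine Finset.sum_congr rfl fun i hi => ?_
  rw [cartan_of_rt hD.checked hu hr hs e (Finset.mem_range.1 hi)]
  ring

theorem pr_eq_sum {r s : ℕ} (hr : r < D.nroots) (hs : s < D.nroots) :
    pr D r s = ∑ i ∈ Finset.range D.rank, ∑ j ∈ Finset.range D.rank,
      rt D r i * rt D s j * D.cartan i (D.simple j) := by
  rw [pr_eq_co hD]
  refine Finset.sum_congr rfl fun i hi => ?_
  rw [Finset.mem_range] at hi
  rw [co_eq_rt hD hr hi, cartan_eq_sum hD.checked hi hs, Finset.mul_sum]
  exact Finset.sum_congr rfl fun j _ => by ring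

/-- `∑ g, ⟨g, r^∨⟩ ⟨g, s^∨⟩ = 2 h ⟨s, r^∨⟩`. -/
theorem sum_pr {r s : ℕ} (hr : r < D.nroots) (hs : s < D.nroots) :
    ∑ g ∈ Finset.range D.nroots, pr D r g * pr D s g = (twoh D : ℤ) * pr D r s := by
  have h1 : ∀ g, pr D r g * pr D s g = ∑ i ∈ Finset.range D.rank, ∑ j ∈ Finset.range D.rank,
      co D r i * co D s j * (D.cartan i g * D.cartan j g) := by
    intro g
    rw [pr_eq_co hD, pr_eq_co hD, Finset.sum_mul_sum]
    exact Finset.sum_congr rfl fun i _ => Finset.sum_congr rfl fun j _ => by ring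
  simp only [h1]
  rw [Finset.sum_comm]
  have h2 : ∀ i ∈ Finset.range D.rank, ∑ g ∈ Finset.range D.nroots, ∑ j ∈ Finset.range D.rank,
      co D r i * co D s j * (D.cartan i g * D.cartan j g) = ∑ j ∈ Finset.range D.rank,
      co D r i * co D s j * ((twoh D : ℤ) * D.cartan i (D.simple j)) := by
    intro i hi
    rw [Finset.sum_comm]
    refine Finset.sum_congr rfl fun j hj => ?_
    rw [← Finset.mul_sum, sum_cartan hD (Finset.mem_range.1 hi) (Finset.mem_range.1 hj)]
  rw [Finset.sum_congr rfl h2, pr_eq_sum hD hr hs, Finset.mul_sum]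
  refine Finset.sum_congr rfl fun i hi => ?_
  rw [Finset.mul_sum]
  refine Finset.sum_congr rfl fun j hj => ?_
  rw [co_eq_rt hD hr (Finset.mem_range.1 hi), co_eq_rt hD hs (Finset.mem_range.1 hj)]
  ring

theorem twoh_pos : 0 < (twoh D : ℤ) := by
  simp only [SLD, List.mem_cons, List.not_mem_nil, or_false] at hD
  rcases hD with rfl | rfl | rfl | rfl <;> decide +kernel

/-- The pairing is symmetric. -/
theorem pr_comm {r s : ℕ} (hr : r < D.nroots) (hs : s < D.nroots) : pr D r s = pr D s r := by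
  have h1 := sum_pr hD hr hs
  have h2 := sum_pr hD hs hr
  have h3 : (twoh D : ℤ) * pr D r s = (twoh D : ℤ) * pr D s r := by
    rw [← h1, ← h2]
    exact Finset.sum_congr rfl fun g _ => mul_comm _ _
  exact mul_left_cancel₀ (twoh_pos hD).ne' h3

theorem pr_self {r : ℕ} (hr : r < D.nroots) : pr D r r = 2 := (StringMem.rootOK_of_mem hD.inList hr).cartan_self

theorem pr_neg_right {r s : ℕ} (hs : s < D.nroots) : pr D r (D.neg s) = - pr D r s := by
  simp only [pr_eq_co hD]
  rw [← Finset.sum_neg_distrib]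
  refine Finset.sum_congr rfl fun i hi => ?_
  rw [cartan_neg hD.checked (Finset.mem_range.1 hi) hs, mul_neg]

theorem pr_neg_left {r s : ℕ} (hr : r < D.nroots) : pr D (D.neg r) s = - pr D r s := by
  simp only [pr_eq_co hD]
  rw [← Finset.sum_neg_distrib]
  refine Finset.sum_congr rfl fun i hi => ?_
  have := (StringMem.rootOK_of_mem hD.inList hr).co_neg i (Finset.mem_range.1 hi)
  rw [show co D (D.neg r) i = - co D r i from this, neg_mul]

/-- Strings: `⟨s, r^∨⟩ ∈ {-1, 0, 1}`, and `r + s` is a root in the first case. -/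
theorem str {r s : ℕ} (hr : r < D.nroots) (hs : s < D.nroots) (h1 : s ≠ r) (h2 : s ≠ D.neg r) :
    pr D r s = 0 ∨ pr D r s = 1 ∨ (pr D r s = -1 ∧ ∃ u < D.nroots, D.chainRoot r s 1 = some u ∧
      ∀ i, rt D u i = rt D s i + rt D r i) := by
  obtain ⟨q, S, E, k, hS, hk, rfl, he⟩ := StringMem.hasStrings_of_mem hD.inList hr s hs h1 h2
  have hq : q ≤ 1 := by
    have h3 := length_chainEntry hD r (S 0)
    rw [hS.up 0 (Nat.zero_le _), List.length_map, List.length_range] at h3
    omega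
  rw [pr_eq hD, he]
  rcases Nat.lt_or_ge k q with h3 | h3
  · have hk0 : k = 0 := by omega
    have hq1 : q = 1 := by omega
    subst hk0
    subst hq1
    refine Or.inr (Or.inr ⟨by norm_num, S 1, hS.lt 1 le_rfl, ?_, ?_⟩)
    · have hdef : D.chainRoot r (S 0) 1 = ((D.chainEntry r (S 0))[1 - 1]?).map Prod.fst := rfl
      rw [hdef, hS.up 0 (Nat.zero_le _)]
      rfl
    · intro i
      have h5 : (D.chainEntry r (S 0))[0]? = some (S 1, E 0 * E 1 * (((1 : ℕ).choose 1 : ℕ) : ℤ)) := by
        rw [hS.up 0 (Nat.zero_le _)]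
        rfl
      have h6 := (chainEntry_get hD.checked h5).2.2.2 i
      rw [h6]
      push_cast
      ring
  · have hk0 : k = q := by omega
    subst hk0
    interval_cases k
    · left; norm_num
    · right; left; norm_num

theorem pr_abs_le {r s : ℕ} (hr : r < D.nroots) (hs : s < D.nroots) (h1 : s ≠ r) (h2 : s ≠ D.neg r) :
    |pr D r s| ≤ 1 := by
  rcases str hD hr hs h1 h2 with h | h | ⟨h, -⟩ <;> rw [h] <;> norm_num

theorem eq_of_pr_two {r s : ℕ} (hr : r < D.nroots) (hs : s < D.nroots) (h : pr D r s = 2) : s = r := by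
  by_contra h1
  by_cases h2 : s = D.neg r
  · rw [h2, pr_neg_right hD hr, pr_self hD hr] at h
    omega
  · have := pr_abs_le hD hr hs h1 h2
    rw [h] at this
    norm_num at this

theorem eq_neg_of_pr {r s : ℕ} (hr : r < D.nroots) (hs : s < D.nroots) (h : pr D r s = -2) : s = D.neg r := by
  by_contra h2
  by_cases h1 : s = r
  · rw [h1, pr_self hD hr] at h
    omega
  · have := pr_abs_le hD hr hs h1 h2
    rw [h] at this
    norm_num at this

/-- `⟨s, r^∨⟩ = -1` : the root `u = r + s`. -/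
theorem exists_add {r s : ℕ} (hr : r < D.nroots) (hs : s < D.nroots) (h : pr D r s = -1) :
    ∃ u < D.nroots, D.chainRoot r s 1 = some u ∧ (∀ i, rt D u i = rt D s i + rt D r i) ∧
      (∀ t, pr D t u = pr D t s + pr D t r) ∧ (∀ t < D.nroots, pr D u t = pr D s t + pr D r t) := by
  have h1 : s ≠ r := by
    rintro rfl
    rw [pr_self hD hr] at h
    omega
  have h2 : s ≠ D.neg r := by
    rintro rfl
    rw [pr_neg_right hD hr, pr_self hD hr] at h
    omega
  rcases str hD hr hs h1 h2 with h3 | h3 | ⟨-, u, hu, hc, he⟩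
  · omega
  · omega
  · have h4 : ∀ t, pr D t u = pr D t s + pr D t r := by
      intro t
      have := pr_of_rt hD (t := t) (a := 1) (b := 1) hu hs hr (fun i _ => by rw [he i]; ring)
      rw [this]
      ring
    exact ⟨u, hu, hc, he, h4, fun t ht => by
      rw [pr_comm hD hu ht, h4 t, pr_comm hD ht hs, pr_comm hD ht hr]⟩

/-- `⟨b, a^∨⟩ = 1` : the root `c = a - b`. -/
theorem exists_sub {a b : ℕ} (ha : a < D.nroots) (hb : b < D.nroots) (h : pr D a b = 1) :
    ∃ c < D.nroots, (∀ i, rt D c i = rt D a i - rt D b i) ∧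
      (∀ t, pr D t c = pr D t a - pr D t b) ∧ (∀ t < D.nroots, pr D c t = pr D a t - pr D b t) := by
  have hb' := RootVec.neg_lt hD.checked hb
  obtain ⟨u, hu, -, he, h1, h2⟩ := exists_add hD hb' ha (by rw [pr_neg_left hD hb, pr_comm hD hb ha, h])
  refine ⟨u, hu, fun i => by rw [he, rt_neg hD.checked hb]; ring, fun t => by rw [h1, pr_neg_right hD hb]; ring,
    fun t ht => by rw [h2 t ht, pr_neg_left hD hb]; ring⟩

/-- The number of `g` with prescribed pairings with `a` and `b`. -/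
def Nm (D : ChevalleyDatum) (a b : ℕ) (u v : ℤ) : Finset ℕ :=
  (Finset.range D.nroots).filter fun g => pr D a g = u ∧ pr D b g = v

omit hD in
theorem mem_Nm {a b g : ℕ} {u v : ℤ} : g ∈ Nm D a b u v ↔ g < D.nroots ∧ pr D a g = u ∧ pr D b g = v := by
  rw [Nm, Finset.mem_filter, Finset.mem_range]

theorem card_Nm_neg (a b : ℕ) (u v : ℤ) : (Nm D a b (-u) (-v)).card = (Nm D a b u v).card := by
  refine Finset.card_bij (fun g _ => D.neg g) (fun g hg => ?_) (fun g hg g' hg' e => ?_) (fun g hg => ?_)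
  · rw [mem_Nm] at hg ⊢
    obtain ⟨h1, h2, h3⟩ := hg
    exact ⟨RootVec.neg_lt hD.checked h1, by rw [pr_neg_right hD h1, h2, _root_.neg_neg],
      by rw [pr_neg_right hD h1, h3, _root_.neg_neg]⟩
  · rw [mem_Nm] at hg hg'
    exact RootVec.neg_inj hD.checked hg.1 hg'.1 e
  · rw [mem_Nm] at hg
    obtain ⟨h1, h2, h3⟩ := hg
    refine ⟨D.neg g, ?_, RootVec.neg_neg hD.checked h1⟩
    rw [mem_Nm]
    exact ⟨RootVec.neg_lt hD.checked h1, by rw [pr_neg_right hD h1, h2],
      by rw [pr_neg_right hD h1, h3]⟩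

/-- `⟨b, a^∨⟩ = 1` : exactly one root with `⟨g, a^∨⟩ = 1`, `⟨g, b^∨⟩ = -1`. -/
theorem card_Nm_one_neg {a b : ℕ} (ha : a < D.nroots) (hb : b < D.nroots) (h : pr D a b = 1) :
    (Nm D a b 1 (-1)).card = 1 := by
  obtain ⟨c, hc, -, h1, h2⟩ := exists_sub hD ha hb h
  rw [Finset.card_eq_one]
  refine ⟨c, Finset.ext fun g => ?_⟩
  rw [mem_Nm, Finset.mem_singleton]
  constructor
  · rintro ⟨hg, h3, h4⟩
    exact eq_of_pr_two hD hc hg (by rw [h2 g hg, h3, h4]; norm_num)
  · rintro rfl
    refine ⟨hc, ?_, ?_⟩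
    · rw [h1, pr_self hD ha, h]; norm_num
    · rw [h1, pr_self hD hb, pr_comm hD hb ha, h]; norm_num

/-- `⟨b, a^∨⟩ = -1` : exactly one root with `⟨g, a^∨⟩ = ⟨g, b^∨⟩ = 1`. -/
theorem card_Nm_one_one {a b : ℕ} (ha : a < D.nroots) (hb : b < D.nroots) (h : pr D a b = -1) :
    (Nm D a b 1 1).card = 1 := by
  obtain ⟨c, hc, -, -, h1, h2⟩ := exists_add hD ha hb h
  rw [Finset.card_eq_one]
  refine ⟨c, Finset.ext fun g => ?_⟩
  rw [mem_Nm, Finset.mem_singleton]
  constructor
  · rintro ⟨hg, h3, h4⟩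
    exact eq_of_pr_two hD hc hg (by rw [h2 g hg, h3, h4]; norm_num)
  · rintro rfl
    refine ⟨hc, ?_, ?_⟩
    · rw [h1, pr_self hD ha, h]; norm_num
    · rw [h1, pr_self hD hb, pr_comm hD hb ha, h]; norm_num

omit hD in
theorem sum_ite_card {n : ℕ} (p : ℕ → Prop) [DecidablePred p] :
    ∑ g ∈ Finset.range n, (if p g then (1 : ℤ) else 0) = (((Finset.range n).filter p).card : ℤ) := by
  rw [Finset.sum_boole]

/-- `⟨b, a^∨⟩ = 1` : the number of `g` with `⟨g, a^∨⟩ = ⟨g, b^∨⟩ = 1` is `h - 3`. -/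
theorem card_Nm_one {a b : ℕ} (ha : a < D.nroots) (hb : b < D.nroots) (h : pr D a b = 1) :
    2 * (Nm D a b 1 1).card + 6 = twoh D := by
  have hab : b ≠ a := by
    rintro rfl
    rw [pr_self hD ha] at h
    omega
  have hab' : b ≠ D.neg a := by
    rintro rfl
    rw [pr_neg_right hD ha, pr_self hD ha] at h
    omega
  have hna := RootVec.neg_lt hD.checked ha
  have hnb := RootVec.neg_lt hD.checked hb
  have hba : pr D b a = 1 := by rw [pr_comm hD hb ha, h]
  have key : ∀ g ∈ Finset.range D.nroots, pr D a g * pr D b g =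
      ((if pr D a g = 1 ∧ pr D b g = 1 then (1 : ℤ) else 0) + (if pr D a g = -1 ∧ pr D b g = -1 then (1 : ℤ) else 0)
      - (if pr D a g = 1 ∧ pr D b g = -1 then (1 : ℤ) else 0) - (if pr D a g = -1 ∧ pr D b g = 1 then (1 : ℤ) else 0))
      + 2 * ((if a = g then (1 : ℤ) else 0) + (if b = g then (1 : ℤ) else 0) + (if D.neg a = g then (1 : ℤ) else 0)
      + (if D.neg b = g then (1 : ℤ) else 0)) := by
    intro g hg
    rw [Finset.mem_range] at hg
    have hne1 : a ≠ D.neg a := (NPerm.neg_ne hD.inList ha).symm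
    have hne2 : b ≠ D.neg b := (NPerm.neg_ne hD.inList hb).symm
    have hne3 : a ≠ D.neg b := by
      rintro e
      apply hab'
      rw [e, RootVec.neg_neg hD.checked hb]
    have hne4 : D.neg a ≠ D.neg b := fun e => hab (RootVec.neg_inj hD.checked ha hb e).symm
    by_cases e1 : a = g
    · subst e1
      rw [pr_self hD ha, hba]
      simp [hab, hne1.symm, hne3.symm]
    by_cases e2 : b = g
    · subst e2
      rw [pr_self hD hb, h]
      simp [hab.symm, hab'.symm, hne2.symm]
    by_cases e3 : D.neg a = g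
    · subst e3
      rw [pr_neg_right hD ha, pr_neg_right hD ha, pr_self hD ha, hba]
      simp [hab', hne1, hne4.symm]
    by_cases e4 : D.neg b = g
    · subst e4
      rw [pr_neg_right hD hb, pr_neg_right hD hb, pr_self hD hb, h]
      simp [hne2, hne3, hne4]
    rw [if_neg e1, if_neg e2, if_neg e3, if_neg e4]
    rcases str hD ha hg (Ne.symm e1) (Ne.symm e3) with h1 | h1 | ⟨h1, -⟩ <;>
      rcases str hD hb hg (Ne.symm e2) (Ne.symm e4) with h2 | h2 | ⟨h2, -⟩ <;> rw [h1, h2] <;> norm_num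
  have hs := sum_pr hD ha hb
  rw [Finset.sum_congr rfl key, h, mul_one, Finset.sum_add_distrib, Finset.sum_sub_distrib, Finset.sum_sub_distrib,
    Finset.sum_add_distrib, ← Finset.mul_sum, Finset.sum_add_distrib, Finset.sum_add_distrib, Finset.sum_add_distrib,
    sum_ite_card, sum_ite_card, sum_ite_card, sum_ite_card, Finset.sum_ite_eq, Finset.sum_ite_eq, Finset.sum_ite_eq,
    Finset.sum_ite_eq, if_pos (Finset.mem_range.2 ha), if_pos (Finset.mem_range.2 hb), if_pos (Finset.mem_range.2 hna),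
    if_pos (Finset.mem_range.2 hnb)] at hs
  have c1 := card_Nm_neg hD a b 1 1
  have c2 := card_Nm_neg hD a b 1 (-1)
  have c3 := card_Nm_one_neg hD ha hb h
  rw [_root_.neg_neg] at c2
  have e1 : (Nm D a b 1 1) = (Finset.range D.nroots).filter fun g => pr D a g = 1 ∧ pr D b g = 1 := rfl
  have e2 : (Nm D a b (-1) (-1)) = (Finset.range D.nroots).filter fun g => pr D a g = -1 ∧ pr D b g = -1 := rfl
  have e3 : (Nm D a b 1 (-1)) = (Finset.range D.nroots).filter fun g => pr D a g = 1 ∧ pr D b g = -1 := rfl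
  have e4 : (Nm D a b (-1) 1) = (Finset.range D.nroots).filter fun g => pr D a g = -1 ∧ pr D b g = 1 := rfl
  rw [← e1, ← e2, ← e3, ← e4, c1, c2, c3] at hs
  have : (2 * ((Nm D a b 1 1).card : ℤ) + 6) = (twoh D : ℤ) := by
    push_cast at hs
    linarith
  exact_mod_cast this

/-- **Parity** : for `⟨b, a^∨⟩ = ± 1` the number of roots `g` with `⟨g, a^∨⟩ = ⟨g, b^∨⟩ = 1` is odd. -/
theorem odd_card {a b : ℕ} (ha : a < D.nroots) (hb : b < D.nroots) (h : pr D a b = 1 ∨ pr D a b = -1) :
    Odd ((Finset.range D.nroots).filter fun g => pr D a g = 1 ∧ pr D b g = 1).card := by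
  change Odd (Nm D a b 1 1).card
  rcases h with h | h
  · have h1 := card_Nm_one hD ha hb h
    have h2 := twoh_mod hD
    rw [Nat.odd_iff]
    omega
  · rw [card_Nm_one_one hD ha hb h]
    exact odd_one

omit hD in
/-- An involution of a finite set of odd order has a fixed point. -/
theorem exists_fixed_of_odd {S : Finset ℕ} (hS : Odd S.card) (w : ℕ → ℕ) (h1 : ∀ g ∈ S, w g ∈ S)
    (h2 : ∀ g ∈ S, w (w g) = g) : ∃ g ∈ S, w g = g := by
  have hσ : Function.Involutive (fun g : S => (⟨w g, h1 g g.2⟩ : S)) := fun g => Subtype.ext (h2 g g.2)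
  obtain ⟨g, hg⟩ := Equiv.Perm.exists_fixed_point_of_prime (p := 2) (n := 1) (σ := hσ.toPerm)
    (by rw [Fintype.card_coe]; exact hS.not_two_dvd_nat) (by
      ext g
      rw [pow_one, pow_two]
      exact congrArg Subtype.val (hσ g))
  exact ⟨g, g.2, congrArg Subtype.val hg⟩

/-- An involutive isometry `w` of the roots with `⟨wa, a^∨⟩ = ± 1` or `wa = a` fixes a root `g` not orthogonal to
`a`. -/
theorem exists_fixed {w : ℕ → ℕ} (hw : ∀ g < D.nroots, w g < D.nroots) (hw2 : ∀ g < D.nroots, w (w g) = g)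
    (hpr : ∀ r < D.nroots, ∀ s < D.nroots, pr D (w r) (w s) = pr D r s) {a : ℕ} (ha : a < D.nroots)
    (h1 : w a ≠ D.neg a) (h : pr D a (w a) ≠ 0) : ∃ g < D.nroots, w g = g ∧ pr D g a ≠ 0 := by
  by_cases h2 : w a = a
  · exact ⟨a, ha, h2, by rw [pr_self hD ha]; norm_num⟩
  have h3 : pr D a (w a) = 1 ∨ pr D a (w a) = -1 := by
    rcases str hD ha (hw a ha) h2 h1 with h3 | h3 | ⟨h3, -⟩
    exacts [absurd h3 h, Or.inl h3, Or.inr h3]
  have h4 : ∀ g ∈ (Finset.range D.nroots).filter (fun g => pr D a g = 1 ∧ pr D (w a) g = 1),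
      w g ∈ (Finset.range D.nroots).filter (fun g => pr D a g = 1 ∧ pr D (w a) g = 1) := by
    intro g hg
    obtain ⟨hg0, hg3, hg4⟩ := Finset.mem_filter.1 hg
    rw [Finset.mem_range] at hg0
    refine Finset.mem_filter.2 ⟨Finset.mem_range.2 (hw g hg0), ?_, ?_⟩
    · rw [← hpr a ha (w g) (hw g hg0), hw2 g hg0, hg4]
    · rw [hpr a ha g hg0, hg3]
  obtain ⟨g, hg, hg2⟩ := exists_fixed_of_odd (odd_card hD ha (hw a ha) h3) w h4
    (fun g hg => hw2 g (Finset.mem_range.1 (Finset.mem_filter.1 hg).1))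
  obtain ⟨hg0, hg3, -⟩ := Finset.mem_filter.1 hg
  rw [Finset.mem_range] at hg0
  exact ⟨g, hg0, hg2, by rw [pr_comm hD hg0 ha, hg3]; exact one_ne_zero⟩

/-- Orthogonal roots `a`, `b`: the window of `a^∨ + b^∨` is `[-2, 2]`. -/
theorem window {a b s : ℕ} (ha : a < D.nroots) (hb : b < D.nroots) (hs : s < D.nroots) (h : pr D a b = 0) :
    |pr D a s + pr D b s| ≤ 2 := by
  have hba : pr D b a = 0 := by rw [pr_comm hD hb ha, h]
  have aux : ∀ x y : ℕ, x < D.nroots → y < D.nroots → pr D x y = 0 → (s = x ∨ s = D.neg x) →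
      |pr D x s + pr D y s| ≤ 2 := by
    intro x y hx hy hxy hs'
    have hyx : pr D y x = 0 := by rw [pr_comm hD hy hx, hxy]
    rcases hs' with rfl | rfl
    · rw [pr_self hD hx, hyx]; norm_num
    · rw [pr_neg_right hD hx, pr_neg_right hD hx, pr_self hD hx, hyx]; norm_num
  by_cases e1 : s = a ∨ s = D.neg a
  · exact aux a b ha hb h e1
  by_cases e2 : s = b ∨ s = D.neg b
  · rw [add_comm]
    exact aux b a hb ha hba e2
  rw [not_or] at e1 e2
  have h1 := pr_abs_le hD ha hs e1.1 e1.2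
  have h2 := pr_abs_le hD hb hs e2.1 e2.2
  rw [abs_le] at h1 h2 ⊢
  constructor <;> linarith

end

end Cfsg.Agent.H179.OT
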